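import Cfsg.Agent.N2.Ex.Tri

/-!
# N2, exceptional groups, several components: the order of `A = H ⊓ T` (helper9)
-/

set_option autoImplicit false
set_option linter.unusedSectionVars false

namespace Cfsg.Agent.N2.Ex.Mu.Gp

open Subgroup Cfsg.Agent.FP3 Cfsg.Agent.TH Cfsg.Agent.TH.Own

variable {G : Type} [Group G] [Finite G] {T H : Subgroup G} {𝓢 : Set (Subgroup G)}

theorem fin (𝓢 : Set (Subgroup G)) : Finite 𝓢 :=
  Finite.of_injective (fun S : 𝓢 => ((S : Subgroup G) : Set G)) fun _ _ e => Subtype.ext (SetLike.coe_injective e)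

theorem card_le_fib {X : Type} [Finite X] (A C : Subgroup G) (f : A → X) (h : ∀ a b, f a = f b → (a : G)⁻¹ * b ∈ C) :
    Nat.card A ≤ Nat.card X * Nat.card C := by
  rw [← Nat.card_prod]
  refine Nat.card_le_card_of_injective (fun a => (f a, (⟨_, h _ a (Function.invFun_eq (f := f) ⟨a, rfl⟩)⟩ : C))) fun a b e => ?_
  have h1 := Subtype.mk.inj (Prod.mk.inj e).2
  rw [(Prod.mk.inj e).1] at h1
  exact Subtype.ext (mul_left_cancel h1)

theorem mem_nm {S : Subgroup G} {a b : G} (h : TH.cj a S = TH.cj b S) : a⁻¹ * b ∈ normalizer (S : Set G) :=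
  nm_iff.2 (by rw [cj_mul, ← h, cj_inv_cj])

/-- the normaliser of a subgroup -/
theorem card_nm_le (B S : Subgroup G) (h : B ≤ normalizer (S : Set G)) :
    Nat.card B ≤ Nat.card (MulAut S) * Nat.card ↥(B ⊓ centralizer (S : Set G)) :=
  card_le_fib B _ (fun b => S.normalizerMonoidHom ⟨b, h b.2⟩) fun a b e => ⟨B.mul_mem (B.inv_mem a.2) b.2, fun x hx => by
    have h1 : (a : G) * x * (a : G)⁻¹ = b * x * (b : G)⁻¹ := congrArg Subtype.val (DFunLike.congr_fun e (⟨x, hx⟩ : S))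
    calc x * ((a : G)⁻¹ * b) = (a : G)⁻¹ * (a * x * (a : G)⁻¹) * b := by group
      _ = _ := by rw [h1]; group⟩

/-- **one component**: `|A| ≤ #{S : |S| = |S₀|} |Aut S₀| |C_T(S₀)|` -/
theorem card_le_one (h : Mul T H 𝓢) {S₀ : Subgroup G} (h0 : S₀ ∈ 𝓢) :
    Nat.card ↥(H ⊓ T) ≤ {S | S ∈ 𝓢 ∧ Nat.card S = Nat.card S₀}.ncard *
      (Nat.card (MulAut S₀) * Nat.card ↥(T ⊓ centralizer (S₀ : Set G))) := by
  have := fin {S | S ∈ 𝓢 ∧ Nat.card S = Nat.card S₀}
  refine (card_le_fib (X := {S | S ∈ 𝓢 ∧ Nat.card S = Nat.card S₀}) (H ⊓ T) (H ⊓ T ⊓ normalizer (S₀ : Set G))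
    (fun a => ⟨TH.cj a S₀, h.perm a a.2.1 S₀ h0, TH.card_cj _ _⟩) fun a b e =>
      ⟨(H ⊓ T).mul_mem ((H ⊓ T).inv_mem a.2) b.2, mem_nm (Subtype.mk.inj e)⟩).trans (Nat.mul_le_mul_left _ ?_)
  exact (card_nm_le _ S₀ inf_le_right).trans (Nat.mul_le_mul_left _ (card_le_of_le
    (inf_le_inf_right _ (inf_le_left.trans inf_le_right))))

/-- the subgroup of `A` which normalises all components -/
def A0 (T H : Subgroup G) (𝓢 : Set (Subgroup G)) : Subgroup G := H ⊓ T ⊓ ⨅ S : 𝓢, normalizer ((S : Subgroup G) : Set G)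

theorem card_A0 (h : Mul T H 𝓢) [Fintype 𝓢] : Nat.card (A0 T H 𝓢) ∣ ∏ S : 𝓢, Nat.card (MulAut (S : Subgroup G)) := by
  rw [← Nat.card_pi]
  refine card_dvd_of_injective (MonoidHom.pi fun S : 𝓢 => (S : Subgroup G).normalizerMonoidHom.comp
    (inclusion (inf_le_right.trans (iInf_le _ S)))) ((injective_iff_map_eq_one _).2 fun a ha => Subtype.ext
      (h.cent a a.2.1.2 fun S hS x hx => ?_))
  exact mul_inv_eq_iff_eq_mul.1 (congrArg Subtype.val (DFunLike.congr_fun (congrFun ha ⟨S, hS⟩) (⟨x, hx⟩ : S)))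

/-- the action on the components -/
def act (h : Mul T H 𝓢) : ↥(H ⊓ T) →* Equiv.Perm 𝓢 where
  toFun a := ⟨fun S => ⟨TH.cj a S, h.perm a a.2.1 S S.2⟩, fun S => ⟨TH.cj (a : G)⁻¹ S, h.perm _ (inv_mem a.2.1) S S.2⟩,
    fun S => Subtype.ext (cj_inv_cj _ _), fun S => Subtype.ext (by
      have := cj_inv_cj (a : G)⁻¹ (S : Subgroup G)
      rwa [inv_inv] at this)⟩
  map_one' := Equiv.ext fun S => Subtype.ext (cj_one _)
  map_mul' a b := Equiv.ext fun S => Subtype.ext (cj_mul _ _ _)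

theorem act_coe (h : Mul T H 𝓢) (a : ↥(H ⊓ T)) (S : 𝓢) : (act h a S : Subgroup G) = TH.cj (a : G) S := rfl

theorem ker_act (h : Mul T H 𝓢) : (act h).ker = (A0 T H 𝓢).subgroupOf (H ⊓ T) := by
  ext a
  exact ⟨fun k => ⟨a.2, mem_iInf.2 fun S => nm_iff.2 (congrArg Subtype.val (DFunLike.congr_fun k S))⟩,
    fun k => Equiv.ext fun S => Subtype.ext (nm_iff.1 (mem_iInf.1 k.2 S))⟩

/-- **all components**: `|A|` divides `|P| ∏ |Aut S|` if `A` acts on the components as a subgroup of `P` -/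
theorem card_dvd (h : Mul T H 𝓢) [Fintype 𝓢] {P : Subgroup (Equiv.Perm 𝓢)} (hP : (act h).range ≤ P) :
    Nat.card ↥(H ⊓ T) ∣ Nat.card P * ∏ S : 𝓢, Nat.card (MulAut (S : Subgroup G)) := by
  rw [← (act h).ker.index_mul_card, index_ker, ker_act]
  exact mul_dvd_mul (card_dvd_of_le hP)
    ((Nat.card_congr (subgroupOfEquivOfLe (H := A0 T H 𝓢) (K := H ⊓ T) inf_le_left).toEquiv).dvd.trans (card_A0 h))

theorem card_dvd_fact (h : Mul T H 𝓢) [Fintype 𝓢] :
    Nat.card ↥(H ⊓ T) ∣ (Fintype.card 𝓢).factorial * ∏ S : 𝓢, Nat.card (MulAut (S : Subgroup G)) := by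
  have h1 := card_dvd h (P := ⊤) le_top
  rwa [card_top, Nat.card_perm, Nat.card_eq_fintype_card (α := 𝓢)] at h1

/-- the components generate their direct product -/
theorem sub (h : Mul T H 𝓢) {𝓢' : Set (Subgroup G)} (h1 : 𝓢' ⊆ 𝓢) [Fintype 𝓢'] {B : Subgroup G} (hB : ∀ S ∈ 𝓢', S ≤ B) :
    ∏ S : 𝓢', Nat.card (S : Subgroup G) ∣ Nat.card B := by
  classical
  have hc : Pairwise fun S S' : 𝓢' => ∀ x y : G, x ∈ (S : Subgroup G) → y ∈ (S' : Subgroup G) → Commute x y :=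
    fun S S' k x y hx hy => h.comm S (h1 S.2) S' (h1 S'.2) (fun e => k (Subtype.ext e)) x hx y hy
  have hi : Function.Injective (noncommPiCoprod hc) := by
    refine injective_noncommPiCoprod_of_iSupIndep fun S => disjoint_iff.2 ?_
    have := h.simple S (h1 S.2)
    have hz : ∀ x ∈ ⨆ (j : 𝓢') (_ : j ≠ S), (j : Subgroup G), ∀ y ∈ (S : Subgroup G), y * x = x * y := fun x hx =>
      (iSup₂_le (fun j hj x hx y hy => (hc hj.symm y x hy hx).eq) :
        (⨆ (j : 𝓢') (_ : j ≠ S), (j : Subgroup G)) ≤ centralizer (S : Subgroup G)) hx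
    refine eq_bot_iff.2 fun x hx => ?_
    rcases (inferInstance : (center (S : Subgroup G)).Normal).eq_bot_or_eq_top with k | k
    · have k1 : (⟨x, hx.1⟩ : (S : Subgroup G)) ∈ center _ := mem_center_iff.2 fun y => Subtype.ext (hz x hx.2 y y.2)
      rw [k, mem_bot] at k1
      exact mem_bot.2 (Subtype.mk.inj k1)
    · exact absurd ⟨⟨fun a b => mem_center_iff.1 (k.ge (mem_top b)) a⟩⟩ (h.nonab S (h1 S.2))
  rw [← Nat.card_pi, Nat.card_congr (MonoidHom.ofInjective hi).toEquiv, noncommPiCoprod_range]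
  exact card_dvd_of_le (iSup_le fun S => hB S S.2)

theorem prod_dvd (h : Mul T H 𝓢) [Fintype 𝓢] : ∏ S : 𝓢, Nat.card (S : Subgroup G) ∣ Nat.card ↥(H ⊓ T) :=
  sub h subset_rfl h.le

theorem cn_eq (a : T) : cn a = Nat.card ↥(T ⊓ centralizer {(a : G)}) := by
  rw [cn, ← card_map_of_injective T.subtype_injective]
  congr 2
  ext x
  exact ⟨fun ⟨y, h1, h2⟩ => h2 ▸ ⟨y.2, mem_centralizer_singleton_iff.2 (congrArg Subtype.val (mem_centralizer_singleton_iff.1 h1))⟩,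
    fun h => ⟨⟨x, h.1⟩, mem_centralizer_singleton_iff.2 (Subtype.ext (mem_centralizer_singleton_iff.1 h.2)), rfl⟩⟩

theorem cen_one (h : Mul T H 𝓢) {S : Subgroup G} (hS : S ∈ 𝓢) {x : G} (hx : x ∈ S) (hc : ∀ y ∈ S, y * x = x * y) : x = 1 := by
  have := h.simple S hS
  rcases (inferInstance : (center S).Normal).eq_bot_or_eq_top with k | k
  · have k1 : (⟨x, hx⟩ : S) ∈ center _ := mem_center_iff.2 fun y => Subtype.ext (hc y y.2)
    rw [k, mem_bot] at k1
    exact Subtype.mk.inj k1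
  · exact absurd ⟨⟨fun a b => mem_center_iff.1 (k.ge (mem_top b)) a⟩⟩ (h.nonab S hS)

theorem le_cen (h : Mul T H 𝓢) {S S' : Subgroup G} (hS : S ∈ 𝓢) (hS' : S' ∈ 𝓢) (hne : S ≠ S') {s : G} (hs : s ∈ S) :
    S' ≤ T ⊓ centralizer {s} := fun x hx =>
  ⟨(h.le S' hS' hx).2, mem_centralizer_singleton_iff.2 (h.comm S hS S' hS' hne s hs x hx).symm⟩

/-- **(P)**: `|A| ≤ |C_T(s)| |C_T(t)|` for `s ≠ 1` and `t` in different components -/
theorem card_le_two (h : Mul T H 𝓢) {S S' : Subgroup G} (hS : S ∈ 𝓢) (hS' : S' ∈ 𝓢) (hne : S ≠ S') {s t : T}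
    (hs : (s : G) ∈ S) (h1 : s ≠ 1) (ht : (t : G) ∈ S') : Nat.card ↥(H ⊓ T) ≤ cn s * cn t := by
  classical
  let O : Set (Subgroup G) := {U | U ∈ 𝓢 ∧ Nat.card U = Nat.card S'}
  have := fin O
  have := fin (O \ {S})
  have := Fintype.ofFinite ↥(O \ {S})
  have h2 := card_le_fib (X := Σ U : O, (U : Subgroup G)) (H ⊓ T) (T ⊓ centralizer {(t : G)})
    (fun a => ⟨⟨TH.cj a S', h.perm a a.2.1 S' hS', TH.card_cj _ _⟩, ⟨a * t * (a : G)⁻¹, conj_mem_cj _ ht⟩⟩) fun a b e =>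
      ⟨T.mul_mem (T.inv_mem a.2.2) b.2.2, mem_centralizer_singleton_iff.2 (by
        have k : (a : G) * t * (a : G)⁻¹ = b * t * (b : G)⁻¹ := congrArg (fun z : Σ U : O, (U : Subgroup G) => (z.2 : G)) e
        calc (a : G)⁻¹ * b * t = (a : G)⁻¹ * (b * t * (b : G)⁻¹) * b := by group
          _ = _ := by rw [← k]; group)⟩
  rw [cn_eq s, cn_eq t]
  refine h2.trans (Nat.mul_le_mul_right _ ?_)
  have := Fintype.ofFinite O
  rw [Nat.card_sigma, Finset.sum_congr rfl fun U _ => U.2.2, Finset.sum_const, smul_eq_mul, Finset.card_univ,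
    ← Nat.card_eq_fintype_card]
  have h3 := Nat.le_of_dvd Nat.card_pos (sub h (𝓢' := O \ {S}) (fun U k => k.1.1) fun U k => le_cen h hS k.1.1 (Ne.symm k.2) hs)
  rw [Finset.prod_congr rfl fun U _ => U.2.1.2, Finset.prod_const, Finset.card_univ, ← Nat.card_eq_fintype_card] at h3
  have h4 : Nat.card O ≤ Nat.card ↥(O \ {S}) + 1 := Set.ncard_le_ncard_sdiff_add_ncard O {S} |>.trans (by
    rw [Set.ncard_singleton]; rfl)
  have h5 : (s : G) ∉ S' := fun k => h1 (Subtype.ext (cen_one h hS' k fun y hy => (h.comm S hS S' hS' hne s hs y hy).symm))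
  have h6 : 2 * Nat.card S' ≤ Nat.card ↥(T ⊓ centralizer {(s : G)}) := by
    have k := le_cen h hS hS' hne hs
    obtain ⟨c, hc⟩ := card_dvd_of_le k
    have k1 : c ≠ 1 := fun e => h5 ((eq_of_le_of_card_ge k (by rw [hc, e, mul_one])).ge
      ⟨s.2, mem_centralizer_singleton_iff.2 rfl⟩)
    have k2 : c ≠ 0 := fun e => by rw [e, mul_zero] at hc; exact Nat.card_pos.ne' hc
    rw [hc, mul_comm]
    exact Nat.mul_le_mul_left _ (by omega)
  have h7 : 3 ≤ Nat.card S' := by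
    by_contra k
    have := h.simple S' hS'
    have k1 : Nat.card S' = 2 := by have := Finite.one_lt_card (α := S'); omega
    have := isCyclic_of_prime_card (p := 2) k1
    exact h.nonab S' hS' inferInstance
  generalize Nat.card ↥(O \ {S}) = m at h3 h4
  rcases m with _ | _ | m
  · exact (Nat.mul_le_mul_right _ (by omega)).trans h6
  · exact (Nat.mul_le_mul_right _ h4).trans h6
  · refine le_trans ?_ h3
    rw [pow_succ]
    refine Nat.mul_le_mul_right _ (h4.trans (le_trans ?_ (Nat.pow_le_pow_left h7 _)))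
    have := Nat.lt_pow_self (n := m) (show 1 < 3 by decide)
    rw [pow_succ]
    omega

end Cfsg.Agent.N2.Ex.Mu.Gp
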