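import Cfsg.Agent.N2.Ex.Al.Defs
import Cfsg.Agent.Nodes.ClsNorm
import Cfsg.Agent.Nodes.Coroot
import Cfsg.Agent.H932.BR.TorCent

/-!
# N2, multiplicities: the torus of a subsystem subgroup (helper40)

* `H1.inf_le` : the intersection of `T` with the group generated by the root groups of a Levi subsystem is generated by
  the intersections with the rank one groups;
* `h1_Sup`, `h1` : the characters orthogonal to the subsystem are trivial on it.
-/

set_option autoImplicit false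
set_option linter.unusedSectionVars false

namespace Cfsg.Agent.N2.Ex.Mu.Lt

namespace H1

open CoxeterSystem Cfsg.Agent.ChevalleyStructure.CoxeterGeom Cfsg.Agent.Tits.Roots Cfsg.Agent.Tits.Core
  Cfsg.Agent.Tits.Exchange Cfsg.Agent.Nodes.Reps Cfsg.Agent.Nodes.BNOf Cfsg.Agent.Nodes.StabComb Cfsg.Agent.Nodes.Bruhat
  Cfsg.Agent.Nodes.SubComb Cfsg.Agent.Nodes.OppDec Cfsg.Agent.Nodes.Coroot

variable {I W Y : Type*} [Fintype I] [DecidableEq I] [Group W] [Group Y] {M : CoxeterMatrix I}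
  {cs : CoxeterSystem M W} {A : I → I → ℤ} {h : IsCartan M A} {p : ℕ} {T : Subgroup Y} {n : I → Y}
  {X : (I → ℤ) → Subgroup Y}

/-- the group of rank one -/
abbrev L1 (X : (I → ℤ) → Subgroup Y) (j : I) : Subgroup Y := X (sr j) ⊔ X (-sr j)

/-- products of representatives taken in the groups of rank one -/
inductive Pw (cs : CoxeterSystem M W) (hN : NSys M T n) (X : (I → ℤ) → Subgroup Y) (J : Set I) (S : Subgroup Y) :
    ℕ → W → Y → Prop
  | one {s : Y} : s ∈ S → Pw cs hN X J S 0 1 s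
  | step {m : ℕ} {w : W} {k a : Y} {j : I} : j ∈ J → a ∈ L1 X j → Rp cs hN (cs.simple j) a → Pw cs hN X J S m w k →
      Pw cs hN X J S (m + 1) (cs.simple j * w) (a * k)

variable [Finite W]

theorem mul_simple {w : W} {i j : I} (e : rep cs h w (sr j) = sr i) : w * cs.simple j * w⁻¹ = cs.simple i :=
  rep_injective cs h (LinearMap.ext fun x => (rep_rfl'_eq cs h w j x).trans (by rw [e, cpr_sr, rep_simple_eq]))

variable (R : RGD cs h p T n X) {J : Set I} {S : Subgroup Y} (hS : S ≤ T) (h1 : ∀ j ∈ J, T ⊓ L1 X j ≤ S)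

include R hS h1

theorem conj_S {j : I} (hj : j ∈ J) {a s : Y} (ha : a ∈ L1 X j) (hr : Rp cs R.nsys (cs.simple j) a) (hs : s ∈ S) :
    a * s * a⁻¹ ∈ S := by
  have k1 : a * s * a⁻¹ ∈ T := (Subgroup.mem_normalizer_iff.1 hr.mem_normalizer s).1 (hS hs)
  have k2 : s * a⁻¹ * s⁻¹ ∈ L1 X j := by
    have := conj_mem_cj (g := s).2 (inv_mem ha)
    rwa [cj_sup, R.tor _ (isRoot_sr cs h j) s (hS hs), R.tor _ (isRoot_sr cs h j).neg s (hS hs)] at this
  have k3 := h1 j hj ⟨T.mul_mem k1 (T.inv_mem (hS hs)), show a * s * a⁻¹ * s⁻¹ ∈ L1 X j by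
    simpa only [mul_assoc] using mul_mem ha k2⟩
  simpa only [inv_mul_cancel_right] using mul_mem k3 hs

variable {m : ℕ} {w : W} {k : Y}

omit h1 in
theorem Pw.rp (P : Pw cs R.nsys X J S m w k) : Rp cs R.nsys w k := by
  induction P with
  | one hs => exact rp_of_mem (hS hs)
  | step _ _ hr _ ih => exact hr.mul ih

theorem Pw.left (P : Pw cs R.nsys X J S m w k) {s : Y} (hs : s ∈ S) : Pw cs R.nsys X J S m w (s * k) := by
  induction P generalizing s with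
  | one ht => exact .one (mul_mem hs ht)
  | @step m w k a j hj ha hr _ ih =>
    have := Pw.step hj ha hr (ih (conj_S R hS h1 hj (inv_mem ha) (by simpa only [inv_simple] using hr.inv) hs))
    rwa [show a * (a⁻¹ * s * a⁻¹⁻¹ * k) = s * (a * k) by group] at this

/-- deletion -/
theorem Pw.del (P : Pw cs R.nsys X J S m w k) {j : I} {a : Y} (ha : a ∈ L1 X j)
    (hr : Rp cs R.nsys (cs.simple j) a) (hw : ¬ 0 ≤ rep cs h w (sr j)) :
    ∃ m' < m, Pw cs R.nsys X J S m' (w * cs.simple j) (k * a) := by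
  induction P with
  | one => exact absurd (by simpa using sr_nonneg j) hw
  | @step m w k b i hi hb hr' P ih =>
    by_cases h0 : 0 ≤ rep cs h w (sr j)
    · have e : rep cs h w (sr j) = sr i := by
        by_contra e
        exact hw (by rw [rep_mul_apply]; exact ((isRoot_sr cs h j).act w).simple_nonneg h0 i e)
      have k0 := P.rp R hS
      have k1 : k * a * k⁻¹ ∈ L1 X i := by
        have := conj_mem_cj (g := k).2 ha
        rwa [cj_sup, R.conj_rp k0 (isRoot_sr cs h j), R.conj_rp k0 (isRoot_sr cs h j).neg, map_neg, e] at this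
      have k2 := hr'.mul ((k0.mul hr).mul k0.inv)
      rw [mul_simple e, simple_mul_simple_self] at k2
      have k3 := P.left R hS h1 (h1 i hi ⟨k2.mem_of_one, mul_mem hb k1⟩)
      refine ⟨m, Nat.lt_succ_self m, ?_⟩
      rwa [show b * k * a = b * (k * a * k⁻¹) * k by group, show cs.simple i * w * cs.simple j = w by
        rw [← mul_simple e, mul_assoc, mul_assoc, inv_mul_cancel_left, mul_assoc, simple_mul_simple_self, mul_one]]
    · obtain ⟨m', h2, h3⟩ := ih h0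
      exact ⟨m' + 1, Nat.succ_lt_succ h2, by simpa only [mul_assoc] using Pw.step hi hb hr' h3⟩

theorem Pw.mem (P : Pw cs R.nsys X J S m w k) (hw : w = 1) : k ∈ S := by
  induction m using Nat.strong_induction_on generalizing w k with
  | _ m ih =>
  cases P with
  | one hs => exact hs
  | @step m w k a j hj ha hr P =>
    obtain rfl : w = cs.simple j := by rw [← mul_eq_one_iff_inv_eq.1 hw, inv_simple]
    obtain ⟨m', h2, h3⟩ := P.del R hS h1 ha hr (by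
      rw [rep_simple_sr]; exact fun h0 => (isRoot_sr cs h j).not_pos_neg (sr_nonneg j) (neg_nonneg.1 h0))
    have := conj_S R hS h1 hj ha hr (ih m' (by omega) h3 hw)
    rwa [show a * (k * a) * a⁻¹ = a * k by group] at this

omit hS h1 in
theorem rk1 {j : I} {y : Y} (hy : y ∈ X (-sr j)) (h0 : y ≠ 1) : ∃ c ∈ X (sr j), ∃ a ∈ L1 X j, ∃ d ∈ X (sr j),
    Rp cs R.nsys (cs.simple j) a ∧ y = c * a * d := by
  obtain ⟨c, hc, s, hs, d, hd, e⟩ := R.rk1 j y hy h0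
  refine ⟨c, hc, s * n j, ?_, d, hd, by simpa only [one_mul] using (rp_of_mem hs).mul (rp_simple cs R.nsys j),
    by rw [e, mul_assoc c]⟩
  rw [show s * n j = c⁻¹ * y * d⁻¹ by rw [e]; group]
  exact mul_mem (mul_mem (inv_mem (Subgroup.mem_sup_left hc)) (Subgroup.mem_sup_right hy)) (inv_mem (Subgroup.mem_sup_left hd))

omit hS h1 in
theorem conj_neg {j : I} {a x : Y} (hr : Rp cs R.nsys (cs.simple j) a) (hx : x ∈ X (sr j)) (h0 : x ≠ 1) :
    a * x * a⁻¹ ∈ X (-sr j) ∧ a * x * a⁻¹ ≠ 1 :=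
  ⟨rep_simple_sr cs h j ▸ R.conj_mem hr (isRoot_sr cs h j) hx, fun e => h0 (mul_eq_left.1 (mul_inv_eq_one.1 e))⟩

omit hS h1 in
theorem exists_pw (hw : w ∈ WJ cs J) : ∃ m k, Pw cs R.nsys X J S m w k := by
  obtain ⟨ω, hω, rfl⟩ := exists_word_of_mem_WJ cs hw
  clear hw
  induction ω with
  | nil => exact ⟨0, 1, .one (one_mem _)⟩
  | cons j ω ih =>
    obtain ⟨m, k, P⟩ := ih fun i hi => hω i (List.mem_cons_of_mem _ hi)
    obtain ⟨x, hx, h0⟩ := exists_ne_one R j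
    obtain ⟨h2, h3⟩ := conj_neg R (rp_simple cs R.nsys j) hx h0
    obtain ⟨-, -, a, ha, -, -, hr, -⟩ := rk1 R h2 h3
    exact ⟨_, _, wordProd_cons cs j ω ▸ Pw.step (hω j List.mem_cons_self) ha hr P⟩

omit R hS h1 in
/-- the union of the cells -/
def Kc (cs : CoxeterSystem M W) (h : IsCartan M A) (hN : NSys M T n) (X : (I → ℤ) → Subgroup Y) (J : Set I) (S : Subgroup Y)
    (g : Y) : Prop :=
  ∃ u ∈ RGD.Sup X (RGD.Pos cs h), ∃ m w k, Pw cs hN X J S m w k ∧ ∃ v ∈ RGD.Sup X (RGD.Pos cs h), g = u * k * v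

omit h1 in
theorem Kc.step {j : I} (hj : j ∈ J) {a g : Y} (ha : a ∈ L1 X j) (hr : Rp cs R.nsys (cs.simple j) a)
    (hg : Kc cs h R.nsys X J S g) : Kc cs h R.nsys X J S (a * g) := by
  obtain ⟨u, hu, m, w, k, P, v, hv, rfl⟩ := hg
  obtain ⟨r, hr', x, hx, rfl⟩ := exists_mul R (S := RGD.Pos cs h) (i := j) (fun _ hx => hx) ⟨isRoot_sr cs h j, sr_nonneg j⟩
    (fun y hy _ z hz => ⟨hz.1, btwn_nonneg hz (sr_nonneg j) hy.2⟩) hu
  have k1 : a * r * a⁻¹ ∈ RGD.Sup X (RGD.Pos cs h) := conj_mem_Sup R hr (S' := RGD.Pos cs h) (fun x hx => hx.1.1)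
    (fun x hx => ⟨hx.1.1.act _, hx.1.1.simple_nonneg hx.1.2 j hx.2⟩) hr'
  have k2 : ∀ {w k d}, Rp cs R.nsys w k → d ∈ X (sr j) → 0 ≤ rep cs h w⁻¹ (sr j) → k⁻¹ * d * k ∈ RGD.Sup X (RGD.Pos cs h) :=
    fun hk hd h0 => RGD.le_Sup (S := RGD.Pos cs h) ⟨(isRoot_sr cs h j).act _, h0⟩ (R.conj_mem' hk (isRoot_sr cs h j) hd)
  have k0 := P.rp R hS
  have P' := Pw.step hj ha hr P
  by_cases h0 : 0 ≤ rep cs h w⁻¹ (sr j)
  · exact ⟨_, k1, _, _, _, P', _, mul_mem (k2 k0 hx h0) hv, by group⟩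
  by_cases h2 : x = 1
  · exact ⟨_, k1, _, _, _, P', _, hv, by rw [h2]; group⟩
  obtain ⟨h3, h4⟩ := conj_neg R hr hx h2
  obtain ⟨c, hc, b, hb, d, hd, hr2, e⟩ := rk1 R h3 h4
  refine ⟨_, mul_mem k1 (RGD.le_Sup (S := RGD.Pos cs h) ⟨isRoot_sr cs h j, sr_nonneg j⟩ hc), _, _, _, Pw.step hj hb hr2 P', _,
    mul_mem (k2 (hr.mul k0) hd ?_) hv, ?_⟩
  · rw [mul_inv_rev, inv_simple, rep_mul_apply, rep_simple_sr, map_neg]
    exact ((isRoot_sr cs h j).act _).not_nonneg_iff_neg.1 h0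
  · rw [show a * (r * x * k * v) = a * r * a⁻¹ * (a * x * a⁻¹) * (a * k * v) by group, e]
    group

/-- **the torus of the semisimple part of a Levi subgroup** -/
theorem inf_le : T ⊓ RGD.Sup X (RootsJ cs h J) ≤ S := by
  let Q : Subgroup Y :=
    { carrier := {a | ∀ g, Kc cs h R.nsys X J S g ↔ Kc cs h R.nsys X J S (a * g)}
      one_mem' := fun g => by rw [one_mul]
      mul_mem' := fun {a b} ha hb g => by rw [hb g, ha (b * g), mul_assoc]
      inv_mem' := fun {a} ha g => by rw [ha (a⁻¹ * g), mul_inv_cancel_left] }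
  have key : ∀ (a : Y) (q : Y → Prop), (∀ b g, q b → Kc cs h R.nsys X J S g → Kc cs h R.nsys X J S (b * g)) → q a → q a⁻¹ →
      a ∈ Q := fun a q hq h2 h3 g => ⟨hq a g h2, fun h4 => by simpa only [inv_mul_cancel_left] using hq _ _ h3 h4⟩
  have k1 : ∀ {m w k}, Pw cs R.nsys X J S m w k → k ∈ Q := fun P => by
    induction P with
    | one hs =>
      refine key _ (· ∈ S) ?_ hs (inv_mem hs)
      rintro b _ hb ⟨u, hu, m, w, k, P, v, hv, rfl⟩
      exact ⟨_, (Subgroup.mem_normalizer_iff.1 (R.T_le_normalizer_U (hS hb)) u).1 hu, _, _, _, P.left R hS h1 hb, _, hv,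
        by group⟩
    | @step m w k a j hj ha hr _ ih =>
      exact mul_mem (key _ (fun b => b ∈ L1 X j ∧ Rp cs R.nsys (cs.simple j) b) (fun b g hb => Kc.step R hS hj hb.1 hb.2)
        ⟨ha, hr⟩ ⟨inv_mem ha, by simpa only [inv_simple] using hr.inv⟩) ih
  have k2 : RGD.Sup X (RootsJ cs h J) ≤ Q := RGD.Sup_le fun x hx a ha => by
    obtain ⟨w, hw, j, hj, rfl⟩ := exists_of_mem_RootsJ hx
    obtain ⟨m, k, P⟩ := exists_pw R (S := S) hw
    have h2 := R.conj_mem' (P.rp R hS) hx.1 ha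
    rw [rep_inv_apply] at h2
    have h3 := RGD.le_Sup (S := RGD.Pos cs h) ⟨isRoot_sr cs h j, sr_nonneg j⟩ h2
    have h4 : k⁻¹ * a * k ∈ Q := by
      refine key _ (· ∈ RGD.Sup X (RGD.Pos cs h)) ?_ h3 (inv_mem h3)
      rintro b _ hb ⟨u, hu, m, w, k, P, v, hv, rfl⟩
      exact ⟨_, mul_mem hb hu, _, _, _, P, _, hv, by group⟩
    simpa only [mul_assoc, mul_inv_cancel, mul_one, mul_inv_cancel_left] using mul_mem (mul_mem (k1 P) h4) (inv_mem (k1 P))
  rintro t ⟨ht, hM⟩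
  obtain ⟨u, hu, m, w, k, P, v, hv, e⟩ := (k2 hM 1).1 ⟨1, one_mem _, _, _, _, .one (one_mem _), 1, one_mem _, by group⟩
  have h2 := P.mem R hS h1 (R.eq_one_of_mem_B (P.rp R hS) (by
    rw [show k = u⁻¹ * (t * 1) * v⁻¹ by rw [e]; group, mul_one]
    exact mul_mem (mul_mem (inv_mem (RGD.U_le_B hu)) (RGD.T_le_B ht)) (inv_mem (RGD.U_le_B hv))))
  have h3 : t * k⁻¹ ∈ RGD.Sup X (RGD.Pos cs h) ⊓ T := ⟨by
    rw [show t * k⁻¹ = u * (k * v * k⁻¹) by rw [← mul_one t, e]; group]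
    exact mul_mem hu ((Subgroup.mem_normalizer_iff.1 (R.T_le_normalizer_U (hS h2)) v).1 hv), T.mul_mem ht (T.inv_mem (hS h2))⟩
  rw [U_inf_T R, Subgroup.mem_bot, mul_inv_eq_one] at h3
  exact h3 ▸ h2

end H1

open CoxeterSystem Cfsg Cfsg.Lie Cfsg.Lie.ChevalleyDatum
open Cfsg.Agent.ChevalleyStructure Cfsg.Agent.ChevalleyStructure.CoxeterGeom Cfsg.Agent.ChevalleyStructure.CoxeterGeomTypes
  Cfsg.Agent.Tits.Roots Cfsg.Agent.Nodes Cfsg.Agent.Nodes.RGDChev Cfsg.Agent.Nodes.Coroot Cfsg.Agent.Nodes.Reps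
  Cfsg.Agent.Nodes.BNOf Cfsg.Agent.Nodes.StabComb
open Cfsg.Agent.KFacts.RgdChevCoord Cfsg.Agent.H469.Exc Cfsg.Agent.H129.TorusChar Cfsg.Agent.BpExc.TowChev
open Cfsg.Agent.DS.Ex Cfsg.Agent.DS.Nt
open Cfsg.Agent.DS.Ex.Tor (RT)
open Cfsg.Agent.N2.Ex.Al

variable {D : ChevalleyDatum} {l : ℕ} {M : CoxeterMatrix (Fin l)} (hp : IsType D l M) {p : ℕ} [Fact p.Prime]
  {t : YY D p} {x : LL l}

/-- the kernel of a character -/
def kX (p : ℕ) [Fact p.Prime] (x : LL l) : Subgroup (YY D p) where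
  carrier := {t | t ∈ TT D (KK p) ∧ cX hp t x = 1}
  one_mem' := ⟨one_mem _, cX_one hp x⟩
  mul_mem' := fun h k => ⟨mul_mem h.1 k.1, by rw [cX_mul hp h.1 k.1, h.2, k.2, mul_one]⟩
  inv_mem' := fun {t} h => ⟨inv_mem h.1, by
    have := cX_mul hp h.1 (inv_mem h.1) x
    rwa [mul_inv_cancel, cX_one, h.2, one_mul, eq_comm] at this⟩

theorem h1_dom (ht : t ∈ TT D (KK p))
    (hM : t ∈ RGD.Sup (XX D l (KK p)) (RootsJ M.toCoxeterSystem hp.isCartan (orth M.toCoxeterSystem hp.isCartan x))) :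
    cX hp t x = 1 := by
  have := finW hp
  rw [← XLe hp p, (tw hp p).mem_Sup] at hM
  rw [← TLe hp p, (tw hp p).mem_TL] at ht
  obtain ⟨E1, h1⟩ := hM
  obtain ⟨E2, h2⟩ := ht
  obtain ⟨E, a1, a2⟩ := (tw hp p).dir E1 E2
  refine (H1.inf_le ((tw hp p).rgd E) (S := kX hp p x ⊓ Tj hp E) inf_le_right (fun j hj => le_inf ?_ inf_le_left)
    ⟨(tw hp p).monoT a2 h2, (tw hp p).mono_Sup _ a1 h1⟩).1.2
  rintro _ ⟨⟨y, hy, rfl⟩, hL⟩
  have := E.2
  have := charP_lev p E.1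
  rw [H1.L1, Xj, Xj, ← Subgroup.map_sup] at hL
  obtain ⟨a, ha, rfl⟩ := (coroot_mem hp M.toCoxeterSystem p j y).1
    ⟨hy, (Subgroup.mem_map_iff_mem (GpExc.Field.emb_injective hp.inList _)).1 hL⟩
  have h0 : E.1.subtype a ≠ 0 := (map_ne_zero _).2 ha
  rw [emb_hc]
  exact ⟨hc_mem hp j h0, by rw [H932.BR.cX_hc hp j h0, mem_orth.1 hj, zpow_zero]⟩

/-- **the characters orthogonal to a set of roots are trivial on the torus of the subsystem subgroup** -/
theorem h1_Sup {S : Set (LL l)} (hS : ∀ a ∈ S, RT hp a) (ht : t ∈ TT D (KK p)) (hM : t ∈ RGD.Sup (XX D l (KK p)) S)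
    (hx : ∀ a ∈ S, cp hp x a = 0) : cX hp t x = 1 := by
  have := finW hp
  have := Fintype.ofFinite M.Group
  obtain ⟨w, hw⟩ := ClsNorm.exists_dominant (cs := M.toCoxeterSystem) (h := hp.isCartan) x
  obtain ⟨k, hk⟩ := exists_RP hp p w
  rw [← hk.cX ht]
  refine h1_dom hp (hk.conj_mem ht) (Subgroup.mem_comap (f := (MulAut.conj k).toMonoidHom).1
    ((RGD.Sup_le fun a ha y hy => ?_) hM))
  refine RGD.le_Sup ((ClsNorm.mem_RootsJ_orth_iff hw ((hS a ha).act w)).2 ?_) (hk.cj_X (hS a ha) ▸ conj_mem_cj.2 hy)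
  rw [form_rep, form_comm, ← cpr_zero_iff _ _ _ (hS a ha)]
  exact hx a ha

theorem h1 {Z : Set (YY D p)} (ht : t ∈ TT D (KK p)) (hM : t ∈ Mz hp p Z) (x : LL l) (hx : ∀ a ∈ Ps hp p Z, cp hp x a = 0) :
    cX hp t x = 1 := h1_Sup hp (fun _ ha => ha.1) ht hM hx

end Cfsg.Agent.N2.Ex.Mu.Lt
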